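import Cfsg.Agent.R2.Spec.Gamma.Tab

/-!
# Packet GAMMA (helper28): the right sides
-/

set_option autoImplicit false

namespace Cfsg.Agent.R2.Spec.Gamma

theorem numLO {r q d κ V A B C : ℕ} (hq : 3 ≤ q) (hr : 8 ≤ r) (hC : d * C ≤ q + 1) (hA : A ≤ q + 1) (hB : B ≤ q + 1)
    (h : (d * κ ≤ r + 1 ∧ 2 * (d * V) ≤ (q + 1) ^ 2 * r) ∨ (2 * (d * κ) ≤ (q + 1) ^ 2 * r ∧ d * V ≤ r + 1)) :
    2 * (d ^ 2 * (C * κ + 16 * B * κ * V)) ≤ r * (16 * r + 17) * (q + 1) ^ 3 ∧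
      1 * (d * (C + 16 * A * κ)) ≤ (8 * r + 1) * (q + 1) ^ 3 := by
  obtain ⟨X, hX⟩ : ∃ X, X = q + 1 := ⟨_, rfl⟩
  rw [← hX] at hC hA hB h ⊢
  have hX4 : 4 ≤ X := by omega
  have hX2 : 16 ≤ X ^ 2 := by nlinarith
  have hX3 : X ≤ X ^ 3 := Nat.le_self_pow (by norm_num) X
  obtain ⟨x, hx⟩ : ∃ x, x = d * κ := ⟨_, rfl⟩
  obtain ⟨y, hy⟩ : ∃ y, y = d * V := ⟨_, rfl⟩
  rw [← hx, ← hy] at h
  have eW : 2 * (d ^ 2 * (C * κ + 16 * B * κ * V)) = 2 * ((d * C) * x) + 16 * (B * (2 * (x * y))) := by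
    rw [hx, hy]; ring
  have eR : 1 * (d * (C + 16 * A * κ)) = d * C + 8 * (A * (2 * x)) := by
    rw [hx]; ring
  have p1 : 2 * x ≤ X ^ 2 * r := by
    rcases h with h | h
    · have := Nat.mul_le_mul_right r hX2
      omega
    · exact h.1
  have p2 : 2 * (x * y) ≤ X ^ 2 * r * (r + 1) := by
    rcases h with h | h
    · calc 2 * (x * y) = x * (2 * y) := by ring
        _ ≤ (r + 1) * (X ^ 2 * r) := Nat.mul_le_mul h.1 h.2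
        _ = _ := by ring
    · calc 2 * (x * y) = (2 * x) * y := by ring
        _ ≤ (X ^ 2 * r) * (r + 1) := Nat.mul_le_mul h.1 h.2
        _ = _ := by ring
  constructor
  · rw [eW]
    calc 2 * ((d * C) * x) + 16 * (B * (2 * (x * y))) = (d * C) * (2 * x) + 16 * (B * (2 * (x * y))) := by ring
      _ ≤ X * (X ^ 2 * r) + 16 * (X * (X ^ 2 * r * (r + 1))) :=
        Nat.add_le_add (Nat.mul_le_mul hC p1) (Nat.mul_le_mul_left _ (Nat.mul_le_mul hB p2))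
      _ = _ := by ring
  · rw [eR]
    calc d * C + 8 * (A * (2 * x)) ≤ X ^ 3 + 8 * (X * (X ^ 2 * r)) :=
        Nat.add_le_add (hC.trans hX3) (Nat.mul_le_mul_left _ (Nat.mul_le_mul hA p1))
      _ = _ := by ring

theorem numLE {r q d κ V A B C : ℕ} (hq : 3 ≤ q) (hC : d * C ≤ q + 1) (hA : A ≤ q + 1) (hB : B ≤ q + 1)
    (hκ : d * κ ≤ (q + 1) * r) (hp : 2 * ((d * κ) * (d * V)) ≤ (q + 1) ^ 2 * ((r + 1) * r)) :
    1 * (d ^ 2 * (C * κ + 16 * B * κ * V)) ≤ (r + 1) * (8 * r + 1) * (q + 1) ^ 3 ∧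
      1 * (d * (C + 16 * A * κ)) ≤ (16 * r + 1) * (q + 1) ^ 2 := by
  obtain ⟨X, hX⟩ : ∃ X, X = q + 1 := ⟨_, rfl⟩
  rw [← hX] at hC hA hB hκ hp ⊢
  have hX4 : 4 ≤ X := by omega
  obtain ⟨x, hx⟩ : ∃ x, x = d * κ := ⟨_, rfl⟩
  obtain ⟨y, hy⟩ : ∃ y, y = d * V := ⟨_, rfl⟩
  rw [← hx] at hκ
  rw [← hx, ← hy] at hp
  have eW : 1 * (d ^ 2 * (C * κ + 16 * B * κ * V)) = (d * C) * x + 8 * (B * (2 * (x * y))) := by
    rw [hx, hy]; ring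
  have eR : 1 * (d * (C + 16 * A * κ)) = d * C + 16 * (A * x) := by
    rw [hx]; ring
  constructor
  · rw [eW]
    calc (d * C) * x + 8 * (B * (2 * (x * y))) ≤ X * (X * r) + 8 * (X * (X ^ 2 * ((r + 1) * r))) :=
        Nat.add_le_add (Nat.mul_le_mul hC hκ) (Nat.mul_le_mul_left _ (Nat.mul_le_mul hB hp))
      _ = X ^ 2 * r + 8 * r * (r + 1) * X ^ 3 := by ring
      _ ≤ X ^ 3 * (r + 1) + 8 * r * (r + 1) * X ^ 3 :=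
        Nat.add_le_add_right (Nat.mul_le_mul (Nat.pow_le_pow_right (by omega) (by norm_num)) (by omega)) _
      _ = _ := by ring
  · rw [eR]
    calc d * C + 16 * (A * x) ≤ X ^ 2 + 16 * (X * (X * r)) :=
        Nat.add_le_add (hC.trans (Nat.le_self_pow (by norm_num) X)) (Nat.mul_le_mul_left _ (Nat.mul_le_mul hA hκ))
      _ = _ := by ring

theorem numII {n q κ V : ℕ} (hn : 7 ≤ n) (hV : 1 ≤ V) (hκ : 2 * κ ≤ (q + 1) * n)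
    (hp : (2 * κ) * (2 * V) ≤ (q + 1) ^ 2 * n ^ 2) :
    4 * (1 ^ 2 * (1 * κ + 16 * 1 * κ * V)) ≤ 17 * n ^ 2 * (q + 1) ^ 2 ∧
      2 * (1 * (1 + 16 * 1 * κ)) ≤ 17 * n * (q + 1) := by
  constructor
  · have h1 : κ ≤ κ * V := Nat.le_mul_of_pos_right _ hV
    calc 4 * (1 ^ 2 * (1 * κ + 16 * 1 * κ * V)) = 4 * κ + 16 * ((2 * κ) * (2 * V)) := by ring
      _ ≤ (2 * κ) * (2 * V) + 16 * ((2 * κ) * (2 * V)) := by
        refine Nat.add_le_add_right ?_ _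
        calc 4 * κ ≤ 4 * (κ * V) := Nat.mul_le_mul_left _ h1
          _ = _ := by ring
      _ = 17 * ((2 * κ) * (2 * V)) := by ring
      _ ≤ 17 * ((q + 1) ^ 2 * n ^ 2) := Nat.mul_le_mul_left _ hp
      _ = _ := by ring
  · have h1 : 2 ≤ n * (q + 1) := by nlinarith
    calc 2 * (1 * (1 + 16 * 1 * κ)) = 2 + 16 * (2 * κ) := by ring
      _ ≤ n * (q + 1) + 16 * ((q + 1) * n) := Nat.add_le_add h1 (Nat.mul_le_mul_left _ hκ)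
      _ = _ := by ring

theorem numOI {n q κ V A B C : ℕ} (hC : C ≤ (q + 1) ^ 2) (hA : A ≤ q + 1) (hB : B ≤ q + 1)
    (hκ : 2 * κ ≤ (q + 1) * n) (hp : 2 * (κ * V) ≤ (q + 1) ^ 2 * n) :
    4 * (1 ^ 2 * (C * κ + 16 * B * κ * V)) ≤ 34 * n * (q + 1) ^ 3 ∧
      2 * (1 * (C + 16 * A * κ)) ≤ (16 * n + 2) * (q + 1) ^ 2 := by
  constructor
  · calc 4 * (1 ^ 2 * (C * κ + 16 * B * κ * V)) = 2 * (C * (2 * κ)) + 32 * (B * (2 * (κ * V))) := by ring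
      _ ≤ 2 * ((q + 1) ^ 2 * ((q + 1) * n)) + 32 * ((q + 1) * ((q + 1) ^ 2 * n)) :=
        Nat.add_le_add (Nat.mul_le_mul_left _ (Nat.mul_le_mul hC hκ)) (Nat.mul_le_mul_left _ (Nat.mul_le_mul hB hp))
      _ = _ := by ring
  · calc 2 * (1 * (C + 16 * A * κ)) = 2 * C + 16 * (A * (2 * κ)) := by ring
      _ ≤ 2 * (q + 1) ^ 2 + 16 * ((q + 1) * ((q + 1) * n)) :=
        Nat.add_le_add (Nat.mul_le_mul_left _ hC) (Nat.mul_le_mul_left _ (Nat.mul_le_mul hA hκ))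
      _ = _ := by ring

/-! ### conclusions -/

theorem endII {n q κ V M : ℕ} (hn : 7 ≤ n) (hn2 : n % 2 = 1) (hq : 3 ≤ q) (hV : 1 ≤ V) (hκ : 2 * κ ≤ (q + 1) * n)
    (hp : (2 * κ) * (2 * V) ≤ (q + 1) ^ 2 * n ^ 2)
    (h1 : 256 * M ^ 3 ≤ (5832 * (1 * κ + 16 * 1 * κ * V)) ^ 3 * (1 + 16 * 1 * κ) ^ 2) (h2 : q ^ n ≤ 8 * 1 * M) :
    ∃ x ∈ tabII, n = x.1 ∧ q < x.2 := by
  obtain ⟨hW, hR⟩ := numII hn hV hκ hp
  have h3 := fin_ineq h1 h2 le_rfl hW hR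
  rcases levII hn hn2 hq with h4 | h4
  · exact h4
  · exfalso
    unfold ptII at h4
    omega

theorem endOI {n q κ V M A B C : ℕ} (hn : 7 ≤ n) (hn2 : n % 2 = 1) (hq : 3 ≤ q) (hC : C ≤ (q + 1) ^ 2)
    (hA : A ≤ q + 1) (hB : B ≤ q + 1) (hκ : 2 * κ ≤ (q + 1) * n) (hp : 2 * (κ * V) ≤ (q + 1) ^ 2 * n)
    (h1 : 256 * M ^ 3 ≤ (5832 * (C * κ + 16 * B * κ * V)) ^ 3 * (C + 16 * A * κ) ^ 2) (h2 : q ^ n ≤ 8 * 1 * M) :
    ∃ x ∈ tabOI, n = x.1 ∧ q < x.2 := by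
  obtain ⟨hW, hR⟩ := numOI hC hA hB hκ hp
  have h3 := fin_ineq h1 h2 le_rfl hW hR
  rcases levOI hn hn2 hq with h4 | h4
  · exact h4
  · exfalso
    unfold ptOI at h4
    omega

theorem endLO {r q d κ V M A B C : ℕ} (hr : 8 ≤ r) (hr2 : r % 2 = 0) (hq : 3 ≤ q) (hd : 1 ≤ d) (hC : d * C ≤ q + 1)
    (hA : A ≤ q + 1) (hB : B ≤ q + 1)
    (h : (d * κ ≤ r + 1 ∧ 2 * (d * V) ≤ (q + 1) ^ 2 * r) ∨ (2 * (d * κ) ≤ (q + 1) ^ 2 * r ∧ d * V ≤ r + 1))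
    (h1 : 256 * M ^ 3 ≤ (5832 * (C * κ + 16 * B * κ * V)) ^ 3 * (C + 16 * A * κ) ^ 2) (h2 : q ^ r ≤ 8 * d * M) :
    ∃ x ∈ tabLO, r = x.1 ∧ q < x.2 := by
  obtain ⟨hW, hR⟩ := numLO hq hr hC hA hB h
  have h3 := fin_ineq h1 h2 hd hW hR
  rcases levLO hr hr2 hq with h4 | h4
  · exact h4
  · exfalso
    unfold ptLO at h4
    omega

theorem endLE {r q d κ V M A B C : ℕ} (hr : 9 ≤ r) (hr2 : r % 2 = 1) (hq : 3 ≤ q) (hd : 1 ≤ d) (hC : d * C ≤ q + 1)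
    (hA : A ≤ q + 1) (hB : B ≤ q + 1) (hκ : d * κ ≤ (q + 1) * r)
    (hp : 2 * ((d * κ) * (d * V)) ≤ (q + 1) ^ 2 * ((r + 1) * r))
    (h1 : 256 * M ^ 3 ≤ (5832 * (C * κ + 16 * B * κ * V)) ^ 3 * (C + 16 * A * κ) ^ 2) (h2 : q ^ r ≤ 8 * d * M) :
    ∃ x ∈ tabLE, r = x.1 ∧ q < x.2 := by
  obtain ⟨hW, hR⟩ := numLE hq hC hA hB hκ hp
  have h3 := fin_ineq h1 h2 hd hW hR
  rcases levLE hr hr2 hq with h4 | h4
  · exact h4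
  · exfalso
    unfold ptLE at h4
    omega

end Cfsg.Agent.R2.Spec.Gamma
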