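import Mathlib.Tactic

/-!
# Packet GAMMA (helper28): the inequalities
-/

set_option autoImplicit false

namespace Cfsg.Agent.R2.Spec.Gamma

theorem four_pow {f : ℕ} (hf : 1 ≤ f) : 4 * f ^ 4 ≤ 81 * 2 ^ f := by
  rcases Nat.lt_or_ge f 7 with h | h
  · interval_cases f <;> norm_num
  · induction f, h using Nat.le_induction with
    | base => norm_num
    | succ k hk ih =>
      have h1 := ih (by omega)
      have h2 : (k + 1) ^ 4 ≤ 2 * k ^ 4 := by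
        obtain ⟨j, rfl⟩ : ∃ j, k = j + 7 := ⟨k - 7, by omega⟩
        ring_nf
        omega
      rw [pow_succ 2 k]
      omega

theorem three_pow {f : ℕ} (hf : 1 ≤ f) : 3 * f ^ 4 ≤ 2 * 5 ^ f := by
  rcases Nat.lt_or_ge f 3 with h | h
  · interval_cases f <;> norm_num
  · induction f, h using Nat.le_induction with
    | base => norm_num
    | succ k hk ih =>
      have h1 := ih (by omega)
      have h2 : (k + 1) ^ 4 ≤ 5 * k ^ 4 := by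
        obtain ⟨j, rfl⟩ : ∃ j, k = j + 3 := ⟨k - 3, by omega⟩
        ring_nf
        omega
      rw [pow_succ 5 k]
      omega

theorem gam_num {u f κ V a b C M : ℕ} (hu : 2 ≤ u) (hf : 1 ≤ f) (hfu : 4 * f ^ 4 ≤ 81 * u)
    (hQ : u ^ 6 ≤ 8 * ((u + 1) * C + 16 * f * (u + 1) ^ 2 * (a * κ)))
    (hM : M ≤ 8 * f * (u + 1) ^ 2 * κ * (C + 16 * f * b * V)) :
    256 * M ^ 3 ≤ (5832 * (C * κ + 16 * b * κ * V)) ^ 3 * (C + 16 * a * κ) ^ 2 := by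
  obtain ⟨W, hW⟩ : ∃ W, W = C * κ + 16 * b * κ * V := ⟨_, rfl⟩
  obtain ⟨R, hR⟩ : ∃ R, R = C + 16 * a * κ := ⟨_, rfl⟩
  rw [← hW, ← hR]
  have h9 : 4 * (u + 1) ^ 2 ≤ 9 * u ^ 2 := by nlinarith
  -- the bound of `u`
  have s2 : u ^ 4 ≤ 18 * (f * R) := by
    have e0 : u * 1 ≤ u * u := Nat.mul_le_mul_left _ (by omega)
    have e1 : 8 * ((u + 1) * C) ≤ 18 * (f * C) * u ^ 2 := by
      have e2 : 8 * (u + 1) ≤ 18 * u ^ 2 := by nlinarith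
      calc 8 * ((u + 1) * C) = (8 * (u + 1)) * C := by ring
        _ ≤ (18 * u ^ 2) * C := Nat.mul_le_mul_right _ e2
        _ ≤ (18 * u ^ 2) * (f * C) := Nat.mul_le_mul_left _ (Nat.le_mul_of_pos_left _ hf)
        _ = _ := by ring
    have e3 : 8 * (16 * f * (u + 1) ^ 2 * (a * κ)) ≤ (288 * (f * (a * κ))) * u ^ 2 := by
      calc 8 * (16 * f * (u + 1) ^ 2 * (a * κ)) = (4 * (u + 1) ^ 2) * (32 * (f * (a * κ))) := by ring
        _ ≤ (9 * u ^ 2) * (32 * (f * (a * κ))) := Nat.mul_le_mul_right _ h9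
        _ = _ := by ring
    have e4 : u ^ 4 * u ^ 2 ≤ (18 * (f * R)) * u ^ 2 := by
      calc u ^ 4 * u ^ 2 = u ^ 6 := by ring
        _ ≤ 8 * ((u + 1) * C + 16 * f * (u + 1) ^ 2 * (a * κ)) := hQ
        _ = 8 * ((u + 1) * C) + 8 * (16 * f * (u + 1) ^ 2 * (a * κ)) := by ring
        _ ≤ 18 * (f * C) * u ^ 2 + (288 * (f * (a * κ))) * u ^ 2 := Nat.add_le_add e1 e3
        _ = _ := by rw [hR]; ring
    exact Nat.le_of_mul_le_mul_right e4 (by positivity)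
  -- the bound of `M`
  have s1 : M ≤ 18 * (f ^ 2 * u ^ 2 * W) := by
    have e1 : C + 16 * f * b * V ≤ f * (C + 16 * b * V) := by
      calc C + 16 * f * b * V ≤ f * C + 16 * f * b * V := Nat.add_le_add_right (Nat.le_mul_of_pos_left _ hf) _
        _ = _ := by ring
    have e2 : 4 * M ≤ 4 * (18 * (f ^ 2 * u ^ 2 * W)) := by
      calc 4 * M ≤ 4 * (8 * f * (u + 1) ^ 2 * κ * (C + 16 * f * b * V)) := Nat.mul_le_mul_left _ hM
        _ ≤ 4 * (8 * f * (u + 1) ^ 2 * κ * (f * (C + 16 * b * V))) :=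
          Nat.mul_le_mul_left _ (Nat.mul_le_mul_left _ e1)
        _ = (4 * (u + 1) ^ 2) * (8 * f ^ 2 * W) := by rw [hW]; ring
        _ ≤ (9 * u ^ 2) * (8 * f ^ 2 * W) := Nat.mul_le_mul_right _ h9
        _ = _ := by ring
    omega
  have s3 : u ^ 8 ≤ 324 * (f ^ 2 * R ^ 2) := by
    calc u ^ 8 = (u ^ 4) ^ 2 := by ring
      _ ≤ (18 * (f * R)) ^ 2 := Nat.pow_le_pow_left s2 2
      _ = _ := by ring
  have s4 : 16 * f ^ 8 ≤ 6561 * u ^ 2 := by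
    calc 16 * f ^ 8 = (4 * f ^ 4) ^ 2 := by ring
      _ ≤ (81 * u) ^ 2 := Nat.pow_le_pow_left hfu 2
      _ = _ := by ring
  have s5 : 256 * (f ^ 6 * u ^ 6) ≤ 34012224 * R ^ 2 := by
    have e1 : (256 * (f ^ 6 * u ^ 6)) * u ^ 2 ≤ (34012224 * R ^ 2) * u ^ 2 := by
      calc (256 * (f ^ 6 * u ^ 6)) * u ^ 2 = (256 * f ^ 6) * u ^ 8 := by ring
        _ ≤ (256 * f ^ 6) * (324 * (f ^ 2 * R ^ 2)) := Nat.mul_le_mul_left _ s3
        _ = (16 * f ^ 8) * (5184 * R ^ 2) := by ring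
        _ ≤ (6561 * u ^ 2) * (5184 * R ^ 2) := Nat.mul_le_mul_right _ s4
        _ = _ := by ring
    exact Nat.le_of_mul_le_mul_right e1 (by positivity)
  calc 256 * M ^ 3 ≤ 256 * (18 * (f ^ 2 * u ^ 2 * W)) ^ 3 := Nat.mul_le_mul_left _ (Nat.pow_le_pow_left s1 3)
    _ = (256 * (f ^ 6 * u ^ 6)) * (5832 * W ^ 3) := by ring
    _ ≤ (34012224 * R ^ 2) * (5832 * W ^ 3) := Nat.mul_le_mul_right _ s5
    _ = _ := by ring

/-- the exceptional case -/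
theorem gam_exc {u f κ V a b C M : ℕ} (hu : 5 ≤ u) (hf : 1 ≤ f)
    (hQ : u ^ 6 ≤ 2 * u * C + 8 * f * (u + 1) ^ 2 * (a * κ))
    (hM : M ≤ 8 * f * κ * ((u + 1) * C + 4 * f * b * V * (u + 1) ^ 2)) :
    5 * u ^ 4 ≤ 2 * (f * (C + 29 * (a * κ))) ∧ 25 * M ≤ 48 * (f ^ 2 * u ^ 2 * (C * κ + 24 * (b * κ * V))) := by
  have h9 : 25 * (u + 1) ^ 2 ≤ 36 * u ^ 2 := by nlinarith
  constructor
  · have e1 : 5 * (2 * u * C) ≤ (2 * (f * C)) * u ^ 2 := by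
      calc 5 * (2 * u * C) ≤ u * (2 * u * C) := Nat.mul_le_mul_right _ hu
        _ = (2 * C) * u ^ 2 := by ring
        _ ≤ (2 * (f * C)) * u ^ 2 :=
          Nat.mul_le_mul_right _ (Nat.mul_le_mul_left _ (Nat.le_mul_of_pos_left _ hf))
    have e3 : 5 * (8 * f * (u + 1) ^ 2 * (a * κ)) ≤ (58 * (f * (a * κ))) * u ^ 2 := by
      have : 5 * (5 * (8 * f * (u + 1) ^ 2 * (a * κ))) ≤ 5 * ((58 * (f * (a * κ))) * u ^ 2) := by
        calc 5 * (5 * (8 * f * (u + 1) ^ 2 * (a * κ))) = (25 * (u + 1) ^ 2) * (8 * (f * (a * κ))) := by ring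
          _ ≤ (36 * u ^ 2) * (8 * (f * (a * κ))) := Nat.mul_le_mul_right _ h9
          _ = (288 * (f * (a * κ))) * u ^ 2 := by ring
          _ ≤ (290 * (f * (a * κ))) * u ^ 2 := Nat.mul_le_mul_right _ (Nat.mul_le_mul_right _ (by norm_num))
          _ = _ := by ring
      exact Nat.le_of_mul_le_mul_left this (by norm_num)
    have e4 : (5 * u ^ 4) * u ^ 2 ≤ (2 * (f * (C + 29 * (a * κ)))) * u ^ 2 := by
      calc (5 * u ^ 4) * u ^ 2 = 5 * u ^ 6 := by ring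
        _ ≤ 5 * (2 * u * C + 8 * f * (u + 1) ^ 2 * (a * κ)) := Nat.mul_le_mul_left _ hQ
        _ = 5 * (2 * u * C) + 5 * (8 * f * (u + 1) ^ 2 * (a * κ)) := by ring
        _ ≤ (2 * (f * C)) * u ^ 2 + (58 * (f * (a * κ))) * u ^ 2 := Nat.add_le_add e1 e3
        _ = _ := by ring
    exact Nat.le_of_mul_le_mul_right e4 (by positivity)
  · have e1 : 25 * ((u + 1) * C) ≤ (6 * u ^ 2) * C := by
      calc 25 * ((u + 1) * C) = (25 * (u + 1)) * C := by ring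
        _ ≤ (6 * u ^ 2) * C := Nat.mul_le_mul_right _ (by nlinarith)
    calc 25 * M ≤ 25 * (8 * f * κ * ((u + 1) * C + 4 * f * b * V * (u + 1) ^ 2)) := Nat.mul_le_mul_left _ hM
      _ = (8 * f * κ) * (25 * ((u + 1) * C)) + (8 * f * κ * (4 * f * b * V)) * (25 * (u + 1) ^ 2) := by ring
      _ ≤ (8 * f * κ) * ((6 * u ^ 2) * C) + (8 * f * κ * (4 * f * b * V)) * (36 * u ^ 2) :=
        Nat.add_le_add (Nat.mul_le_mul_left _ e1) (Nat.mul_le_mul_left _ h9)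
      _ = (48 * u ^ 2 * C * κ) * f + 1152 * (f ^ 2 * u ^ 2 * (b * κ * V)) := by ring
      _ ≤ (48 * u ^ 2 * C * κ) * f ^ 2 + 1152 * (f ^ 2 * u ^ 2 * (b * κ * V)) :=
        Nat.add_le_add_right (Nat.mul_le_mul_left _ (Nat.le_self_pow (by norm_num) f)) _
      _ = _ := by ring

theorem gam_exc_cub {u f W R M : ℕ} (hu : 1 ≤ u) (h1 : 5 * u ^ 4 ≤ 2 * (f * R)) (h2 : 25 * M ≤ 48 * (f ^ 2 * u ^ 2 * W))
    (hfu : 3 * f ^ 4 ≤ 2 * u) : 3515625 * M ^ 3 ≤ 1769472 * (W ^ 3 * R ^ 2) := by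
  have s3 : 25 * u ^ 8 ≤ 4 * (f ^ 2 * R ^ 2) := by
    calc 25 * u ^ 8 = (5 * u ^ 4) ^ 2 := by ring
      _ ≤ (2 * (f * R)) ^ 2 := Nat.pow_le_pow_left h1 2
      _ = _ := by ring
  have s4 : 9 * f ^ 8 ≤ 4 * u ^ 2 := by
    calc 9 * f ^ 8 = (3 * f ^ 4) ^ 2 := by ring
      _ ≤ (2 * u) ^ 2 := Nat.pow_le_pow_left hfu 2
      _ = _ := by ring
  have s5 : 225 * (f ^ 6 * u ^ 6) ≤ 16 * R ^ 2 := by
    have e1 : (225 * (f ^ 6 * u ^ 6)) * u ^ 2 ≤ (16 * R ^ 2) * u ^ 2 := by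
      calc (225 * (f ^ 6 * u ^ 6)) * u ^ 2 = (9 * f ^ 6) * (25 * u ^ 8) := by ring
        _ ≤ (9 * f ^ 6) * (4 * (f ^ 2 * R ^ 2)) := Nat.mul_le_mul_left _ s3
        _ = (9 * f ^ 8) * (4 * R ^ 2) := by ring
        _ ≤ (4 * u ^ 2) * (4 * R ^ 2) := Nat.mul_le_mul_right _ s4
        _ = _ := by ring
    exact Nat.le_of_mul_le_mul_right e1 (by positivity)
  calc 3515625 * M ^ 3 = 225 * (25 * M) ^ 3 := by ring
    _ ≤ 225 * (48 * (f ^ 2 * u ^ 2 * W)) ^ 3 := Nat.mul_le_mul_left _ (Nat.pow_le_pow_left h2 3)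
    _ = (225 * (f ^ 6 * u ^ 6)) * (110592 * W ^ 3) := by ring
    _ ≤ (16 * R ^ 2) * (110592 * W ^ 3) := Nat.mul_le_mul_right _ s5
    _ = _ := by ring

end Cfsg.Agent.R2.Spec.Gamma
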