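import Mathlib.Tactic

/-!
# Packet GAMMA (helper28): the final inequalities, up to a finite table
-/

set_option autoImplicit false

namespace Cfsg.Agent.R2.Spec.Gamma

/-- combination of the inequality with the lower bound of `M` -/
theorem fin_ineq {q D d M W R A B cw cr : ℕ} (h1 : 256 * M ^ 3 ≤ (5832 * W) ^ 3 * R ^ 2) (h2 : q ^ D ≤ 8 * d * M)
    (hd : 1 ≤ d) (hW : cw * (d ^ 2 * W) ≤ A) (hR : cr * (d * R) ≤ B) :
    cw ^ 3 * cr ^ 2 * q ^ (3 * D) ≤ 2 * 5832 ^ 3 * (A ^ 3 * B ^ 2) := by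
  have e1 : q ^ (3 * D) ≤ (8 * d * M) ^ 3 := by
    rw [mul_comm 3 D, pow_mul]
    exact Nat.pow_le_pow_left h2 3
  have e2 : (cw * W) ^ 3 * (cr * R) ^ 2 * d ^ 3 ≤ A ^ 3 * B ^ 2 := by
    calc (cw * W) ^ 3 * (cr * R) ^ 2 * d ^ 3 ≤ (cw * W) ^ 3 * (cr * R) ^ 2 * d ^ 8 :=
          Nat.mul_le_mul_left _ (Nat.pow_le_pow_right hd (by norm_num))
      _ = (cw * (d ^ 2 * W)) ^ 3 * (cr * (d * R)) ^ 2 := by ring
      _ ≤ A ^ 3 * B ^ 2 := Nat.mul_le_mul (Nat.pow_le_pow_left hW 3) (Nat.pow_le_pow_left hR 2)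
  calc cw ^ 3 * cr ^ 2 * q ^ (3 * D) ≤ cw ^ 3 * cr ^ 2 * (8 * d * M) ^ 3 := Nat.mul_le_mul_left _ e1
    _ = (2 * (cw ^ 3 * cr ^ 2 * d ^ 3)) * (256 * M ^ 3) := by ring
    _ ≤ (2 * (cw ^ 3 * cr ^ 2 * d ^ 3)) * ((5832 * W) ^ 3 * R ^ 2) := Nat.mul_le_mul_left _ h1
    _ = 2 * 5832 ^ 3 * ((cw * W) ^ 3 * (cr * R) ^ 2 * d ^ 3) := by ring
    _ ≤ _ := Nat.mul_le_mul_left _ e2

theorem mono_q {C c e b Q q : ℕ} (hb : b ≤ e) (hQ : 1 ≤ Q) (h : C * (Q + 1) ^ b < c * Q ^ e) (hq : Q ≤ q) :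
    C * (q + 1) ^ b < c * q ^ e := by
  have h1 : (q + 1) * Q ≤ (Q + 1) * q := by nlinarith
  have h2 : (q + 1) ^ b * Q ^ b ≤ (Q + 1) ^ b * q ^ b := by
    rw [← mul_pow, ← mul_pow]
    exact Nat.pow_le_pow_left h1 b
  have hqb : 0 < q ^ b := Nat.pow_pos (by omega)
  have h3 : (C * (q + 1) ^ b) * Q ^ b < (c * q ^ e) * Q ^ b := by
    calc (C * (q + 1) ^ b) * Q ^ b = C * ((q + 1) ^ b * Q ^ b) := by ring
      _ ≤ C * ((Q + 1) ^ b * q ^ b) := Nat.mul_le_mul_left _ h2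
      _ = (C * (Q + 1) ^ b) * q ^ b := by ring
      _ < (c * Q ^ e) * q ^ b := Nat.mul_lt_mul_of_pos_right h hqb
      _ = c * Q ^ (e - b) * (Q ^ b * q ^ b) := by
        rw [show Q ^ e = Q ^ (e - b) * Q ^ b by rw [← pow_add]; congr 1; omega]
        ring
      _ ≤ c * q ^ (e - b) * (Q ^ b * q ^ b) :=
        Nat.mul_le_mul_right _ (Nat.mul_le_mul_left _ (Nat.pow_le_pow_left hq _))
      _ = _ := by
        rw [show q ^ e = q ^ (e - b) * q ^ b by rw [← pow_add]; congr 1; omega]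
        ring
  exact lt_of_mul_lt_mul_right h3 (Nat.zero_le _)

/-- one step in the rank -/
theorem step_n {C c e q A B A' B' : ℕ} (hq : 3 ≤ q) (h : C * (A ^ 3 * B ^ 2) < c * q ^ e) (hA : A' ≤ 2 * A)
    (hB : B' ≤ 2 * B) : C * (A' ^ 3 * B' ^ 2) < c * q ^ (e + 6) := by
  have h6 : 32 ≤ q ^ 6 := by
    calc 32 ≤ 3 ^ 6 := by norm_num
      _ ≤ q ^ 6 := Nat.pow_le_pow_left hq 6
  calc C * (A' ^ 3 * B' ^ 2) ≤ C * ((2 * A) ^ 3 * (2 * B) ^ 2) :=
        Nat.mul_le_mul_left _ (Nat.mul_le_mul (Nat.pow_le_pow_left hA 3) (Nat.pow_le_pow_left hB 2))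
    _ = 32 * (C * (A ^ 3 * B ^ 2)) := by ring
    _ < 32 * (c * q ^ e) := Nat.mul_lt_mul_of_pos_left h (by norm_num)
    _ ≤ q ^ 6 * (c * q ^ e) := Nat.mul_le_mul_right _ h6
    _ = _ := by rw [pow_add]; ring

/-! ### type II -/

def ptII (n q : ℕ) : Prop := 2 * 5832 ^ 3 * ((17 * n ^ 2 * (q + 1) ^ 2) ^ 3 * (17 * n * (q + 1)) ^ 2) < 256 * q ^ (3 * n)

theorem caseII {n Q q : ℕ} (h : 2 * 5832 ^ 3 * ((17 * n ^ 2) ^ 3 * (17 * n) ^ 2) * (Q + 1) ^ 8 < 256 * Q ^ (3 * n))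
    (hb : 8 ≤ 3 * n) (hQ : 1 ≤ Q) (hq : Q ≤ q) : ptII n q := by
  have h1 := mono_q hb hQ h hq
  unfold ptII
  calc _ = 2 * 5832 ^ 3 * ((17 * n ^ 2) ^ 3 * (17 * n) ^ 2) * (q + 1) ^ 8 := by ring
    _ < _ := h1

theorem stepII {n q : ℕ} (hn : 7 ≤ n) (hq : 3 ≤ q) (h : ptII n q) : ptII (n + 2) q := by
  refine step_n (e := 3 * n) hq h ?_ ?_
  · calc 17 * (n + 2) ^ 2 * (q + 1) ^ 2 ≤ (2 * (17 * n ^ 2)) * (q + 1) ^ 2 := Nat.mul_le_mul_right _ (by nlinarith)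
      _ = _ := by ring
  · calc 17 * (n + 2) * (q + 1) ≤ (2 * (17 * n)) * (q + 1) := Nat.mul_le_mul_right _ (by omega)
      _ = _ := by ring

/-- the finite table for type II -/
def tabII : List (ℕ × ℕ) := [(7, 51), (9, 17), (11, 10), (13, 7), (15, 5), (17, 5), (19, 4), (21, 4)]

theorem levII {n q : ℕ} (hn : 7 ≤ n) (hn2 : n % 2 = 1) (hq : 3 ≤ q) : (∃ x ∈ tabII, n = x.1 ∧ q < x.2) ∨ ptII n q := by
  rcases Nat.lt_or_ge n 23 with h | h
  · have key : ∀ Q : ℕ, (n, Q) ∈ tabII → (Q ≤ q → ptII n q) → (∃ x ∈ tabII, n = x.1 ∧ q < x.2) ∨ ptII n q := by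
      intro Q hQ hP
      rcases Nat.lt_or_ge q Q with h1 | h1
      · exact Or.inl ⟨_, hQ, rfl, h1⟩
      · exact Or.inr (hP h1)
    obtain ⟨r, rfl⟩ : ∃ r, n = 2 * r + 7 := ⟨(n - 7) / 2, by omega⟩
    have hr : r < 8 := by omega
    interval_cases r
    · exact key 51 (by decide) (caseII (by norm_num) (by norm_num) (by norm_num))
    · exact key 17 (by decide) (caseII (by norm_num) (by norm_num) (by norm_num))
    · exact key 10 (by decide) (caseII (by norm_num) (by norm_num) (by norm_num))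
    · exact key 7 (by decide) (caseII (by norm_num) (by norm_num) (by norm_num))
    · exact key 5 (by decide) (caseII (by norm_num) (by norm_num) (by norm_num))
    · exact key 5 (by decide) (caseII (by norm_num) (by norm_num) (by norm_num))
    · exact key 4 (by decide) (caseII (by norm_num) (by norm_num) (by norm_num))
    · exact key 4 (by decide) (caseII (by norm_num) (by norm_num) (by norm_num))
  · right
    obtain ⟨r, rfl⟩ : ∃ r, n = 2 * r + 23 := ⟨(n - 23) / 2, by omega⟩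
    clear hn hn2 h
    induction r with
    | zero => exact caseII (by norm_num) (by norm_num) (by norm_num) hq
    | succ r ih => exact stepII (by omega) hq ih

/-! ### orthogonal groups, type I -/

def ptOI (n q : ℕ) : Prop :=
  2 * 5832 ^ 3 * ((34 * n * (q + 1) ^ 3) ^ 3 * ((16 * n + 2) * (q + 1) ^ 2) ^ 2) < 256 * q ^ (3 * n)

theorem caseOI {n Q q : ℕ} (h : 2 * 5832 ^ 3 * ((34 * n) ^ 3 * (16 * n + 2) ^ 2) * (Q + 1) ^ 13 < 256 * Q ^ (3 * n))
    (hb : 13 ≤ 3 * n) (hQ : 1 ≤ Q) (hq : Q ≤ q) : ptOI n q := by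
  have h1 := mono_q hb hQ h hq
  unfold ptOI
  calc _ = 2 * 5832 ^ 3 * ((34 * n) ^ 3 * (16 * n + 2) ^ 2) * (q + 1) ^ 13 := by ring
    _ < _ := h1

theorem stepOI {n q : ℕ} (hn : 7 ≤ n) (hq : 3 ≤ q) (h : ptOI n q) : ptOI (n + 2) q := by
  refine step_n (e := 3 * n) hq h ?_ ?_
  · calc 34 * (n + 2) * (q + 1) ^ 3 ≤ (2 * (34 * n)) * (q + 1) ^ 3 := Nat.mul_le_mul_right _ (by omega)
      _ = _ := by ring
  · calc (16 * (n + 2) + 2) * (q + 1) ^ 2 ≤ (2 * (16 * n + 2)) * (q + 1) ^ 2 := Nat.mul_le_mul_right _ (by omega)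
      _ = _ := by ring

def tabOI : List (ℕ × ℕ) := [(7, 360), (9, 33), (11, 13), (13, 8), (15, 6), (17, 5), (19, 4), (21, 4)]

theorem levOI {n q : ℕ} (hn : 7 ≤ n) (hn2 : n % 2 = 1) (hq : 3 ≤ q) : (∃ x ∈ tabOI, n = x.1 ∧ q < x.2) ∨ ptOI n q := by
  rcases Nat.lt_or_ge n 23 with h | h
  · have key : ∀ Q : ℕ, (n, Q) ∈ tabOI → (Q ≤ q → ptOI n q) → (∃ x ∈ tabOI, n = x.1 ∧ q < x.2) ∨ ptOI n q := by
      intro Q hQ hP
      rcases Nat.lt_or_ge q Q with h1 | h1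
      · exact Or.inl ⟨_, hQ, rfl, h1⟩
      · exact Or.inr (hP h1)
    obtain ⟨r, rfl⟩ : ∃ r, n = 2 * r + 7 := ⟨(n - 7) / 2, by omega⟩
    have hr : r < 8 := by omega
    interval_cases r
    · exact key 360 (by decide) (caseOI (by norm_num) (by norm_num) (by norm_num))
    · exact key 33 (by decide) (caseOI (by norm_num) (by norm_num) (by norm_num))
    · exact key 13 (by decide) (caseOI (by norm_num) (by norm_num) (by norm_num))
    · exact key 8 (by decide) (caseOI (by norm_num) (by norm_num) (by norm_num))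
    · exact key 6 (by decide) (caseOI (by norm_num) (by norm_num) (by norm_num))
    · exact key 5 (by decide) (caseOI (by norm_num) (by norm_num) (by norm_num))
    · exact key 4 (by decide) (caseOI (by norm_num) (by norm_num) (by norm_num))
    · exact key 4 (by decide) (caseOI (by norm_num) (by norm_num) (by norm_num))
  · right
    obtain ⟨r, rfl⟩ : ∃ r, n = 2 * r + 23 := ⟨(n - 23) / 2, by omega⟩
    clear hn hn2 h
    induction r with
    | zero => exact caseOI (by norm_num) (by norm_num) (by norm_num) hq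
    | succ r ih => exact stepOI (by omega) hq ih

/-! ### linear and unitary groups, `n = r + 1` odd -/

def ptLO (r q : ℕ) : Prop :=
  2 * 5832 ^ 3 * ((r * (16 * r + 17) * (q + 1) ^ 3) ^ 3 * ((8 * r + 1) * (q + 1) ^ 3) ^ 2) < 8 * q ^ (3 * r)

theorem caseLO {n Q q : ℕ} (h : 2 * 5832 ^ 3 * ((n * (16 * n + 17)) ^ 3 * (8 * n + 1) ^ 2) * (Q + 1) ^ 15 < 8 * Q ^ (3 * n))
    (hb : 15 ≤ 3 * n) (hQ : 1 ≤ Q) (hq : Q ≤ q) : ptLO n q := by
  have h1 := mono_q hb hQ h hq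
  unfold ptLO
  calc _ = 2 * 5832 ^ 3 * ((n * (16 * n + 17)) ^ 3 * (8 * n + 1) ^ 2) * (q + 1) ^ 15 := by ring
    _ < _ := h1

theorem stepLO {n q : ℕ} (hn : 7 ≤ n) (hq : 3 ≤ q) (h : ptLO n q) : ptLO (n + 2) q := by
  refine step_n (e := 3 * n) hq h ?_ ?_
  · calc (n + 2) * (16 * (n + 2) + 17) * (q + 1) ^ 3 ≤ (2 * (n * (16 * n + 17))) * (q + 1) ^ 3 :=
        Nat.mul_le_mul_right _ (by nlinarith)
      _ = _ := by ring
  · calc (8 * (n + 2) + 1) * (q + 1) ^ 3 ≤ (2 * (8 * n + 1)) * (q + 1) ^ 3 := Nat.mul_le_mul_right _ (by omega)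
      _ = _ := by ring

def tabLO : List (ℕ × ℕ) := [(8, 412), (10, 43), (12, 16), (14, 10), (16, 7), (18, 6), (20, 5), (22, 4), (24, 4)]

theorem levLO {n q : ℕ} (hn : 8 ≤ n) (hn2 : n % 2 = 0) (hq : 3 ≤ q) : (∃ x ∈ tabLO, n = x.1 ∧ q < x.2) ∨ ptLO n q := by
  rcases Nat.lt_or_ge n 26 with h | h
  · have key : ∀ Q : ℕ, (n, Q) ∈ tabLO → (Q ≤ q → ptLO n q) → (∃ x ∈ tabLO, n = x.1 ∧ q < x.2) ∨ ptLO n q := by
      intro Q hQ hP
      rcases Nat.lt_or_ge q Q with h1 | h1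
      · exact Or.inl ⟨_, hQ, rfl, h1⟩
      · exact Or.inr (hP h1)
    obtain ⟨r, rfl⟩ : ∃ r, n = 2 * r + 8 := ⟨(n - 8) / 2, by omega⟩
    have hr : r < 9 := by omega
    interval_cases r
    · exact key 412 (by decide) (caseLO (by norm_num) (by norm_num) (by norm_num))
    · exact key 43 (by decide) (caseLO (by norm_num) (by norm_num) (by norm_num))
    · exact key 16 (by decide) (caseLO (by norm_num) (by norm_num) (by norm_num))
    · exact key 10 (by decide) (caseLO (by norm_num) (by norm_num) (by norm_num))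
    · exact key 7 (by decide) (caseLO (by norm_num) (by norm_num) (by norm_num))
    · exact key 6 (by decide) (caseLO (by norm_num) (by norm_num) (by norm_num))
    · exact key 5 (by decide) (caseLO (by norm_num) (by norm_num) (by norm_num))
    · exact key 4 (by decide) (caseLO (by norm_num) (by norm_num) (by norm_num))
    · exact key 4 (by decide) (caseLO (by norm_num) (by norm_num) (by norm_num))
  · right
    obtain ⟨r, rfl⟩ : ∃ r, n = 2 * r + 26 := ⟨(n - 26) / 2, by omega⟩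
    clear hn hn2 h
    induction r with
    | zero => exact caseLO (by norm_num) (by norm_num) (by norm_num) hq
    | succ r ih => exact stepLO (by omega) hq ih

/-! ### linear and unitary groups, `n = r + 1` even -/

def ptLE (r q : ℕ) : Prop :=
  2 * 5832 ^ 3 * (((r + 1) * (8 * r + 1) * (q + 1) ^ 3) ^ 3 * ((16 * r + 1) * (q + 1) ^ 2) ^ 2) < q ^ (3 * r)

theorem caseLE {n Q q : ℕ}
    (h : 2 * 5832 ^ 3 * (((n + 1) * (8 * n + 1)) ^ 3 * (16 * n + 1) ^ 2) * (Q + 1) ^ 13 < 1 * Q ^ (3 * n))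
    (hb : 13 ≤ 3 * n) (hQ : 1 ≤ Q) (hq : Q ≤ q) : ptLE n q := by
  have h1 := mono_q hb hQ h hq
  rw [one_mul] at h1
  unfold ptLE
  calc _ = 2 * 5832 ^ 3 * (((n + 1) * (8 * n + 1)) ^ 3 * (16 * n + 1) ^ 2) * (q + 1) ^ 13 := by ring
    _ < _ := h1

theorem stepLE {n q : ℕ} (hn : 7 ≤ n) (hq : 3 ≤ q) (h : ptLE n q) : ptLE (n + 2) q := by
  have h' : 2 * 5832 ^ 3 * (((n + 1) * (8 * n + 1) * (q + 1) ^ 3) ^ 3 * ((16 * n + 1) * (q + 1) ^ 2) ^ 2) <
      1 * q ^ (3 * n) := by rw [one_mul]; exact h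
  have := step_n (A' := (n + 2 + 1) * (8 * (n + 2) + 1) * (q + 1) ^ 3) (B' := (16 * (n + 2) + 1) * (q + 1) ^ 2) hq h' ?_ ?_
  · rw [one_mul] at this
    exact this
  · calc (n + 2 + 1) * (8 * (n + 2) + 1) * (q + 1) ^ 3 ≤ (2 * ((n + 1) * (8 * n + 1))) * (q + 1) ^ 3 :=
        Nat.mul_le_mul_right _ (by nlinarith)
      _ = _ := by ring
  · calc (16 * (n + 2) + 1) * (q + 1) ^ 2 ≤ (2 * (16 * n + 1)) * (q + 1) ^ 2 := Nat.mul_le_mul_right _ (by omega)
      _ = _ := by ring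

def tabLE : List (ℕ × ℕ) := [(9, 58), (11, 19), (13, 11), (15, 7), (17, 6), (19, 5), (21, 4), (23, 4), (25, 4)]

theorem levLE {n q : ℕ} (hn : 9 ≤ n) (hn2 : n % 2 = 1) (hq : 3 ≤ q) : (∃ x ∈ tabLE, n = x.1 ∧ q < x.2) ∨ ptLE n q := by
  rcases Nat.lt_or_ge n 27 with h | h
  · have key : ∀ Q : ℕ, (n, Q) ∈ tabLE → (Q ≤ q → ptLE n q) → (∃ x ∈ tabLE, n = x.1 ∧ q < x.2) ∨ ptLE n q := by
      intro Q hQ hP
      rcases Nat.lt_or_ge q Q with h1 | h1
      · exact Or.inl ⟨_, hQ, rfl, h1⟩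
      · exact Or.inr (hP h1)
    obtain ⟨r, rfl⟩ : ∃ r, n = 2 * r + 9 := ⟨(n - 9) / 2, by omega⟩
    have hr : r < 9 := by omega
    interval_cases r
    · exact key 58 (by decide) (caseLE (by norm_num) (by norm_num) (by norm_num))
    · exact key 19 (by decide) (caseLE (by norm_num) (by norm_num) (by norm_num))
    · exact key 11 (by decide) (caseLE (by norm_num) (by norm_num) (by norm_num))
    · exact key 7 (by decide) (caseLE (by norm_num) (by norm_num) (by norm_num))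
    · exact key 6 (by decide) (caseLE (by norm_num) (by norm_num) (by norm_num))
    · exact key 5 (by decide) (caseLE (by norm_num) (by norm_num) (by norm_num))
    · exact key 4 (by decide) (caseLE (by norm_num) (by norm_num) (by norm_num))
    · exact key 4 (by decide) (caseLE (by norm_num) (by norm_num) (by norm_num))
    · exact key 4 (by decide) (caseLE (by norm_num) (by norm_num) (by norm_num))
  · right
    obtain ⟨r, rfl⟩ : ∃ r, n = 2 * r + 27 := ⟨(n - 27) / 2, by omega⟩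
    clear hn hn2 h
    induction r with
    | zero => exact caseLE (by norm_num) (by norm_num) (by norm_num) hq
    | succ r ih => exact stepLE (by omega) hq ih

end Cfsg.Agent.R2.Spec.Gamma
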